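import Mathlib
import Cfsg.Agent.H384.RC.KRule
import Cfsg.Agent.LieClassical.HermPerfect
import Cfsg.Agent.S0283
import Cfsg.Agent.S0249

/-!
# S3510 part B, box BU: unitary polarities of `PSL_n(q ^ 2)` (helper442)
-/

set_option autoImplicit false

open Matrix Cfsg
open Cfsg.Agent.H106.RC Cfsg.Agent.H999.PslGraph Cfsg.Agent.H384.RC
open Cfsg.Agent.ClassicalGeometry.AutPSL.Auto
open Cfsg.Agent.LieClassical.HermBasic Cfsg.Agent.LieClassical.HermSiegel
open scoped commutatorElement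

namespace Cfsg.Agent.H442.RC.KU

section Basic

variable {F : Type} [Field F] {n q : ℕ}

/-- `SU` acting on `PSL` by conjugation -/
noncomputable def fU (n : ℕ) (F : Type) [Field F] (q : ℕ) :
    SU n F q →* MulAut (Matrix.ProjectiveSpecialLinearGroup (Fin n) F) :=
  Cj.comp (Matrix.SpecialLinearGroup.toGL.comp (SU n F q).subtype)

/-- the element of `GL` -/
def gU (k : SU n F q) : GL (Fin n) F := Matrix.SpecialLinearGroup.toGL (k : Matrix.SpecialLinearGroup (Fin n) F)

theorem fU_apply (k : SU n F q) : fU n F q k = Cj (gU k) := rfl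

theorem coe_gU (k : SU n F q) : (gU k : Matrix (Fin n) (Fin n) F) = mat k := rfl

theorem fU_mem (k : SU n F q) : fU n F q k ∈ inn (Matrix.ProjectiveSpecialLinearGroup (Fin n) F) :=
  Cj_mem_inn _ (det_mat k)

/-- the unitary polarity -/
noncomputable def tU (n : ℕ) {F : Type} [Field F] (σ : F ≃+* F) :
    MulAut (Matrix.ProjectiveSpecialLinearGroup (Fin n) F) := lift (fld σ) * It

theorem tU_mul_Cj (σ : F ≃+* F) (g : GL (Fin n) F) : tU n σ * Cj g = Cj (mg σ (ct g)) * tU n σ := by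
  rw [tU, mul_assoc, It_mul_Cj, ← mul_assoc, fld_Cj, mul_assoc]

theorem fld_mul (σ τ : F ≃+* F) :
    (lift (fld σ) * lift (fld τ) : MulAut (Matrix.ProjectiveSpecialLinearGroup (Fin n) F)) = lift (fld (σ * τ)) := by
  rw [← map_mul, ← map_mul]

theorem mg_mg (σ τ : F ≃+* F) (g : GL (Fin n) F) : mg σ (mg τ g) = mg (σ * τ) g := by
  apply Units.ext
  rfl

theorem mg_one (g : GL (Fin n) F) : mg 1 g = g := by
  apply Units.ext
  rfl

theorem ct_mg (σ : F ≃+* F) (g : GL (Fin n) F) : ct (mg σ g) = mg σ (ct g) := by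
  apply Units.ext
  rw [coe_ct, ← map_inv]
  rfl

theorem tU_sq {σ : F ≃+* F} (hσσ : σ * σ = 1) : tU n σ * tU n σ = 1 := by
  have h1 : (It * lift (fld σ) : MulAut (Matrix.ProjectiveSpecialLinearGroup (Fin n) F)) = lift (fld σ) * It :=
    (fld_It σ).symm
  calc tU n σ * tU n σ = lift (fld σ) * (It * lift (fld σ)) * It := by
        rw [tU]; simp only [mul_assoc]
    _ = (lift (fld σ) * lift (fld σ)) * (It * It) := by rw [h1]; simp only [mul_assoc]
    _ = 1 := by rw [It_mul_It, fld_mul, hσσ, map_one, map_one, mul_one]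

theorem tU_mul_Sem {σ τ : F ≃+* F} (hc : σ * τ = τ * σ) (A : GL (Fin n) F) :
    tU n σ * Sem A τ = Sem (mg σ (ct A)) τ * tU n σ := by
  rw [Sem, ← mul_assoc, tU_mul_Cj, Sem, mul_assoc, mul_assoc]
  congr 1
  rw [tU, mul_assoc, ← fld_It, ← mul_assoc, ← mul_assoc, fld_mul, fld_mul, hc]

variable [Fintype F]

theorem sig_sig (hq : Fintype.card F = q ^ 2) {σ : F ≃+* F} (hσ : ∀ a, σ a = a ^ q) : σ * σ = 1 := by
  apply RingEquiv.ext
  intro a
  show σ (σ a) = a
  rw [hσ, hσ, pow_q_pow_q hq]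

omit [Fintype F] in
theorem sig_comm {σ : F ≃+* F} (hσ : ∀ a, σ a = a ^ q) (τ : F ≃+* F) : σ * τ = τ * σ := by
  apply RingEquiv.ext
  intro a
  show σ (τ a) = τ (σ a)
  rw [hσ, hσ, map_pow]

omit [Fintype F] in
theorem herm_eq {σ : F ≃+* F} (hσ : ∀ a, σ a = a ^ q) (u v : Fin n → F) :
    hermForm n F q u v = u ⬝ᵥ (fun i => σ (v i)) := by
  rw [herm_def, dotProduct]
  exact Finset.sum_congr rfl fun i _ => by rw [hσ]

omit [Fintype F] in
theorem map_mulVec' (σ : F ≃+* F) (M : Matrix (Fin n) (Fin n) F) (v : Fin n → F) :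
    (fun i => σ ((M *ᵥ v) i)) = M.map σ *ᵥ (fun i => σ (v i)) := by
  funext i
  show σ (∑ j, M i j * v j) = ∑ j, σ (M i j) * σ (v j)
  rw [map_sum]
  exact Finset.sum_congr rfl fun j _ => map_mul _ _ _

omit [Fintype F] in
/-- membership in `SU` by matrices -/
theorem mem_SU_mat {σ : F ≃+* F} (hσ : ∀ a, σ a = a ^ q) (g : Matrix.SpecialLinearGroup (Fin n) F) :
    g ∈ SU n F q ↔ (g : Matrix (Fin n) (Fin n) F)ᵀ * (g : Matrix (Fin n) (Fin n) F).map σ = 1 := by
  have key : ∀ u v : Fin n → F, hermForm n F q ((g : Matrix (Fin n) (Fin n) F) *ᵥ u)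
      ((g : Matrix (Fin n) (Fin n) F) *ᵥ v) =
      u ⬝ᵥ (((g : Matrix (Fin n) (Fin n) F)ᵀ * (g : Matrix (Fin n) (Fin n) F).map σ) *ᵥ fun i => σ (v i)) := by
    intro u v
    rw [herm_eq hσ, map_mulVec', ← Matrix.mulVec_mulVec, Matrix.dotProduct_mulVec u, Matrix.vecMul_transpose]
  rw [mem_SU_iff]
  constructor
  · intro h
    ext i j
    have h1 := h (Pi.single i 1) (Pi.single j 1)
    rw [key, herm_eq hσ] at h1
    have h2 : (fun l => σ ((Pi.single j 1 : Fin n → F) l)) = Pi.single j 1 := by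
      funext l
      by_cases hl : l = j
      · subst hl; rw [Pi.single_eq_same, map_one]
      · rw [Pi.single_eq_of_ne hl, map_zero]
    rw [h2, single_one_dotProduct, single_one_dotProduct, Matrix.mulVec_single_one] at h1
    rw [Matrix.one_apply]
    change ((g : Matrix (Fin n) (Fin n) F)ᵀ * (g : Matrix (Fin n) (Fin n) F).map σ) i j = _ at h1
    rw [h1, Pi.single_apply]
  · intro h u v
    rw [key, h, Matrix.one_mulVec, herm_eq hσ]

omit [Fintype F] in
theorem ct_eq_of_mat {σ : F ≃+* F} {g : GL (Fin n) F}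
    (h : (g : Matrix (Fin n) (Fin n) F)ᵀ * (g : Matrix (Fin n) (Fin n) F).map σ = 1) : ct g = mg σ g := by
  have h1 : (ct g)⁻¹ * mg σ g = 1 := by
    apply Units.ext
    rw [Units.val_mul, coe_ct_inv, coe_mg, h, Units.val_one]
  exact inv_mul_eq_one.1 h1

omit [Fintype F] in
theorem mat_of_ct_eq {σ : F ≃+* F} {g : GL (Fin n) F} (h : ct g = mg σ g) :
    (g : Matrix (Fin n) (Fin n) F)ᵀ * (g : Matrix (Fin n) (Fin n) F).map σ = 1 := by
  have h1 : (((ct g)⁻¹ * mg σ g : GL (Fin n) F) : Matrix (Fin n) (Fin n) F) = 1 := by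
    rw [h, inv_mul_cancel, Units.val_one]
  rwa [Units.val_mul, coe_ct_inv, coe_mg] at h1

omit [Fintype F] in
theorem ct_gU {σ : F ≃+* F} (hσ : ∀ a, σ a = a ^ q) (k : SU n F q) : ct (gU k) = mg σ (gU k) :=
  ct_eq_of_mat ((mem_SU_mat hσ _).1 k.2)

/-- `t` centralises the unitary group -/
theorem t_comm (hq : Fintype.card F = q ^ 2) {σ : F ≃+* F} (hσ : ∀ a, σ a = a ^ q) (k : SU n F q) :
    tU n σ * fU n F q k = fU n F q k * tU n σ := by
  rw [fU_apply, tU_mul_Cj, ct_gU hσ, mg_mg, sig_sig hq hσ, mg_one]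

/-- everything commuting with `t` normalises the unitary group -/
theorem norm_fU [Nontrivial (Fin n)] (hq : Fintype.card F = q ^ 2) {σ : F ≃+* F} (hσ : ∀ a, σ a = a ^ q)
    {A : GL (Fin n) F} {τ : F ≃+* F} (h : tU n σ * Sem A τ = Sem A τ * tU n σ) (k : SU n F q) :
    ∃ k' : SU n F q, Sem A τ * fU n F q k * (Sem A τ)⁻¹ = fU n F q k' := by
  rw [tU_mul_Sem (sig_comm hσ τ)] at h
  have h1 := mul_right_cancel h
  rw [Sem, Sem] at h1
  have h2 := (Cj_eq_iff.1 (mul_right_cancel h1).symm)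
  obtain ⟨c, hc, h2⟩ := h2
  -- `σ(A⁻ᵀ) = c A`
  have hz : ∃ z : GL (Fin n) F, (∀ g, z * g = g * z) ∧ ct A = z * mg σ A := by
    refine ⟨mg σ (mg σ (ct A) * A⁻¹), ?_, ?_⟩
    · intro g
      have e : mg σ (mg σ (ct A) * A⁻¹) =
          (Units.mk ((σ c) • (1 : Matrix (Fin n) (Fin n) F)) ((σ c)⁻¹ • (1 : Matrix (Fin n) (Fin n) F))
            (by rw [smul_mul_smul_comm, mul_inv_cancel₀ ((map_ne_zero σ).2 hc), one_mul, one_smul])
            (by rw [smul_mul_smul_comm, inv_mul_cancel₀ ((map_ne_zero σ).2 hc), one_mul, one_smul])) := by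
        apply Units.ext
        rw [coe_mg, Units.val_mul, h2, Matrix.smul_mul, ← Units.val_mul, mul_inv_cancel, Units.val_one]
        ext i j
        show σ (c * (1 : Matrix (Fin n) (Fin n) F) i j) = σ c * (1 : Matrix (Fin n) (Fin n) F) i j
        rw [map_mul]
        congr 1
        rw [Matrix.one_apply]
        split
        · exact map_one σ
        · exact map_zero σ
      apply Units.ext
      rw [e, Units.val_mul, Units.val_mul]
      show ((σ c) • (1 : Matrix (Fin n) (Fin n) F)) * (g : Matrix (Fin n) (Fin n) F) =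
        (g : Matrix (Fin n) (Fin n) F) * ((σ c) • (1 : Matrix (Fin n) (Fin n) F))
      rw [Matrix.smul_mul, Matrix.mul_smul, Matrix.one_mul, Matrix.mul_one]
    · rw [map_mul, mg_mg, sig_sig hq hσ, mg_one, map_inv, inv_mul_cancel_right]
  obtain ⟨z, hz, hA⟩ := hz
  have hg : ct (A * mg τ (gU k) * A⁻¹) = mg σ (A * mg τ (gU k) * A⁻¹) := by
    have hzz : ∀ X B : GL (Fin n) F, z * X * B * (z * X)⁻¹ = X * B * X⁻¹ := by
      intro X B
      calc z * X * B * (z * X)⁻¹ = z * (X * B * X⁻¹) * z⁻¹ := by group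
        _ = (X * B * X⁻¹) * z * z⁻¹ := by rw [hz]
        _ = _ := by group
    rw [ct_mul, ct_mul, ct_inv, ct_mg, ct_gU hσ, hA, hzz, map_mul, map_mul, mg_mg, mg_mg, sig_comm hσ τ, map_inv]
  have hdet : ((A * mg τ (gU k) * A⁻¹ : GL (Fin n) F) : Matrix (Fin n) (Fin n) F).det = 1 := by
    rw [Units.val_mul, Units.val_mul, Matrix.det_mul, Matrix.det_mul, coe_mg, mul_right_comm, ← Matrix.det_mul,
      ← Units.val_mul, mul_inv_cancel, Units.val_one, Matrix.det_one, one_mul, coe_gU]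
    have : ((mat k).map τ).det = τ (mat k).det := (RingEquiv.map_det τ (mat k)).symm
    rw [this, det_mat, map_one]
  let g' : Matrix.SpecialLinearGroup (Fin n) F := ⟨_, hdet⟩
  refine ⟨⟨g', (mem_SU_mat hσ g').2 (mat_of_ct_eq hg)⟩, ?_⟩
  rw [fU_apply, Sem_conj_Cj, fU_apply]
  congr 1
  apply Units.ext
  rfl

/-- transvections -/
theorem isSiegel {u : Fin n → F} (_ : Fintype.card F = q ^ 2) (hu : hermForm n F q u u = 0) {c : F}
    (hc : c + c ^ q = 0) : IsSiegel q u 0 c :=
  ⟨hu, herm_zero_left u, by rw [herm_zero_left, add_zero, hc]⟩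

theorem act_trans {u : Fin n → F} (hq : Fintype.card F = q ^ 2) (hu : hermForm n F q u u = 0) {c : F}
    (hc : c + c ^ q = 0) (v : Fin n → F) :
    act (siegel hq u 0 c (isSiegel hq hu hc)) v = v + (c * hermForm n F q v u) • u := by
  rw [act_siegel, smul_zero, add_zero, herm_zero_right hq, sub_zero]

/-- a semilinear map commuting with the transvection at `u` maps `u` to a multiple -/
theorem fix_of_comm [Nontrivial (Fin n)] (hq : Fintype.card F = q ^ 2) {A : GL (Fin n) F} {τ : F ≃+* F}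
    (h : ∀ k : SU n F q, Sem A τ * fU n F q k = fU n F q k * Sem A τ) {u : Fin n → F}
    (hu : hermForm n F q u u = 0) :
    ∃ μ : F, (A : Matrix (Fin n) (Fin n) F) *ᵥ (fun i => τ (u i)) = μ • u := by
  by_cases hu0 : u = 0
  · subst hu0
    refine ⟨0, ?_⟩
    have e : (fun i => τ ((0 : Fin n → F) i)) = 0 := by
      funext i
      exact map_zero τ
    rw [e, Matrix.mulVec_zero, smul_zero]
  obtain ⟨c, hc0, hc⟩ := exists_trace_zero_ne hq
  obtain ⟨k, hk⟩ : ∃ k : SU n F q, ∀ v, mat k *ᵥ v = v + (c * hermForm n F q v u) • u :=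
    ⟨_, act_trans hq hu hc⟩
  obtain ⟨d, -, hd⟩ := (Sem_comm_iff A τ (gU k)).1 (h k)
  have hnil : IsNilpotent ((gU k : Matrix (Fin n) (Fin n) F) - 1) := by
    rw [coe_gU]
    refine ⟨2, ?_⟩
    apply Matrix.ext_of_mulVec_single
    intro i
    have key : ∀ v : Fin n → F, (mat k - 1) *ᵥ v = (c * hermForm n F q v u) • u := by
      intro v
      rw [Matrix.sub_mulVec, Matrix.one_mulVec, hk, add_sub_cancel_left]
    rw [Matrix.zero_mulVec, pow_two, ← Matrix.mulVec_mulVec, key, key, herm_smul_left, hu, mul_zero, mul_zero,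
      zero_smul]
  have hex := unip_exact A τ _ hnil hd
  rw [coe_gU] at hex
  obtain ⟨x, hx⟩ : ∃ x, hermForm n F q x u ≠ 0 := by
    obtain ⟨v, hv⟩ := exists_herm_ne_zero hq hu0
    refine ⟨v, fun h => hv ?_⟩
    rw [herm_swap hq v u, h, zero_pow_q hq]
  have h1 := congrArg (fun M : Matrix (Fin n) (Fin n) F => M *ᵥ (fun i => τ (x i))) hex
  simp only [← Matrix.mulVec_mulVec] at h1
  rw [← map_mulVec'] at h1
  have h2 : (fun i => τ ((mat k *ᵥ x) i)) =
      (fun i => τ (x i)) + τ (c * hermForm n F q x u) • (fun i => τ (u i)) := by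
    funext i
    rw [hk, Pi.add_apply, map_add, Pi.smul_apply, smul_eq_mul, map_mul]
    rfl
  rw [h2, Matrix.mulVec_add, Matrix.mulVec_smul, hk] at h1
  have h4 := add_left_cancel h1
  have h5 : τ (c * hermForm n F q x u) ≠ 0 := (map_ne_zero τ).2 (mul_ne_zero hc0 hx)
  refine ⟨(τ (c * hermForm n F q x u))⁻¹ *
    (c * hermForm n F q ((A : Matrix (Fin n) (Fin n) F) *ᵥ fun i => τ (x i)) u), ?_⟩
  rw [mul_smul, ← h4, smul_smul, inv_mul_cancel₀ h5, one_smul]

/-- **nothing centralises the unitary group** -/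
theorem sem_eq_one (hn : 3 ≤ n) (hq : Fintype.card F = q ^ 2) {A : GL (Fin n) F} {τ : F ≃+* F}
    (h : ∀ k : SU n F q, Sem A τ * fU n F q k = fU n F q k * Sem A τ) : Sem A τ = 1 := by
  have : Nontrivial (Fin n) := Fin.nontrivial_iff_two_le.2 (by omega)
  have hfix := fun (u : Fin n → F) (hu : hermForm n F q u u = 0) => fix_of_comm hq h hu
  obtain ⟨a, ha0, ha⟩ := exists_norm_eq_ne hq (c := (-1 : F))
    (by rw [neg_pow_q hq, one_pow]) (neg_ne_zero.2 one_ne_zero)
  -- three distinct indices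
  have hthird : ∀ i j : Fin n, ∃ k : Fin n, k ≠ i ∧ k ≠ j := by
    intro i j
    obtain ⟨k, hk⟩ : ∃ k : Fin n, k ∉ ({i, j} : Finset (Fin n)) := by
      by_contra hcon
      push Not at hcon
      have h1 : (Finset.univ : Finset (Fin n)).card ≤ ({i, j} : Finset (Fin n)).card :=
        Finset.card_le_card fun k _ => hcon k
      have h2 : ({i, j} : Finset (Fin n)).card ≤ 2 := Finset.card_le_two
      rw [Finset.card_univ, Fintype.card_fin] at h1
      omega
    simp only [Finset.mem_insert, Finset.mem_singleton, not_or] at hk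
    exact ⟨k, hk.1, hk.2⟩
  have hss : ∀ i j : Fin n, hermForm n F q (Pi.single i 1) (Pi.single j 1) = if i = j then 1 else 0 := by
    intro i j
    rw [herm_single_right hq, one_pow, mul_one, Pi.single_apply]
    by_cases e : i = j
    · rw [if_pos e, if_pos e.symm]
    · rw [if_neg e, if_neg (Ne.symm e)]
  -- the isotropic vectors
  have hiso : ∀ (i j k : Fin n) (b c : F), i ≠ j → i ≠ k → j ≠ k → 1 + b * b ^ q + c * c ^ q = 0 →
      hermForm n F q (Pi.single i 1 + (b • Pi.single j 1 + c • Pi.single k 1))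
        (Pi.single i 1 + (b • Pi.single j 1 + c • Pi.single k 1)) = 0 := by
    intro i j k b c hij hik hjk hbc
    simp only [herm_add_left, herm_add_right hq, herm_smul_left, herm_smul_right, hss, if_true, if_neg hij,
      if_neg hij.symm, if_neg hik, if_neg hik.symm, if_neg hjk, if_neg hjk.symm]
    linear_combination hbc
  have hτs : ∀ (i j k : Fin n) (b c : F),
      (fun l => τ ((Pi.single i 1 + (b • Pi.single j 1 + c • Pi.single k 1) : Fin n → F) l)) =
      (Pi.single i 1 + (τ b • Pi.single j 1 + τ c • Pi.single k 1) : Fin n → F) := by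
    intro i j k b c
    have e : ∀ (i l : Fin n), τ ((Pi.single i 1 : Fin n → F) l) = (Pi.single i 1 : Fin n → F) l := by
      intro i l
      rw [Pi.single_apply]
      split
      · exact map_one τ
      · exact map_zero τ
    funext l
    simp only [Pi.add_apply, Pi.smul_apply, smul_eq_mul, map_add, map_mul, e]
  have hrel : ∀ (i j k : Fin n) (b c : F), i ≠ j → i ≠ k → j ≠ k → 1 + b * b ^ q + c * c ^ q = 0 →
      ∃ μ : F, ∀ l, (A : Matrix (Fin n) (Fin n) F) l i + (τ b * (A : Matrix (Fin n) (Fin n) F) l j +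
        τ c * (A : Matrix (Fin n) (Fin n) F) l k) =
        μ * ((Pi.single i 1 + (b • Pi.single j 1 + c • Pi.single k 1) : Fin n → F) l) := by
    intro i j k b c hij hik hjk hbc
    obtain ⟨μ, hμ⟩ := hfix _ (hiso i j k b c hij hik hjk hbc)
    refine ⟨μ, fun l => ?_⟩
    have h1 := congrFun hμ l
    rw [hτs, Matrix.mulVec_add, Matrix.mulVec_add, Matrix.mulVec_smul, Matrix.mulVec_smul,
      Matrix.mulVec_single_one, Matrix.mulVec_single_one, Matrix.mulVec_single_one] at h1
    exact h1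
  -- `A` is diagonal
  obtain ⟨b, hb⟩ := exists_not_fixed hq
  have hb0 : b ≠ 0 := by
    rintro rfl
    exact hb (zero_pow_q hq)
  have hζ : (b ^ q / b) * (b ^ q / b) ^ q = 1 := by
    rw [div_pow, pow_q_pow_q hq]
    field_simp
  have hζ1 : b ^ q / b ≠ 1 := by
    intro h
    exact hb ((div_eq_one_iff_eq hb0).1 h)
  obtain ⟨a', ha', haa'⟩ : ∃ a' : F, a' * a' ^ q = -1 ∧ a' ≠ a := by
    refine ⟨a * (b ^ q / b), ?_, ?_⟩
    · rw [Cfsg.Agent.LieClassical.HermBasic.norm_mul, ha, hζ, mul_one]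
    · intro h
      apply hζ1
      exact mul_left_cancel₀ ha0 (by rw [h, mul_one])
  have hoff : ∀ l j : Fin n, l ≠ j → (A : Matrix (Fin n) (Fin n) F) l j = 0 := by
    intro l j hlj
    obtain ⟨i, hil, hij⟩ := hthird l j
    obtain ⟨μ, hμ⟩ := hrel i j l a 0 hij hil hlj.symm (by rw [zero_mul, add_zero, ha]; ring)
    obtain ⟨μ', hμ'⟩ := hrel i j l a' 0 hij hil hlj.symm (by rw [zero_mul, add_zero, ha']; ring)
    have h1 := hμ l
    have h2 := hμ' l
    simp only [Pi.add_apply, Pi.smul_apply, Pi.single_eq_of_ne hil.symm, Pi.single_eq_of_ne hlj, Pi.single_eq_same,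
      smul_eq_mul, mul_zero, zero_mul, add_zero, map_zero] at h1 h2
    have h3 : (τ a - τ a') * (A : Matrix (Fin n) (Fin n) F) l j = 0 := by
      linear_combination h1 - h2
    rcases mul_eq_zero.1 h3 with h3 | h3
    · exfalso
      exact haa' (τ.injective (sub_eq_zero.1 h3)).symm
    · exact h3
  have hAi : ∀ i : Fin n, (A : Matrix (Fin n) (Fin n) F) i i ≠ 0 := by
    intro i hi
    have h1 : (A : Matrix (Fin n) (Fin n) F) * ((A⁻¹ : GL (Fin n) F) : Matrix (Fin n) (Fin n) F) = 1 := by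
      rw [← Units.val_mul, mul_inv_cancel, Units.val_one]
    have h2 := congrFun (congrFun h1 i) i
    rw [Matrix.mul_apply, Matrix.one_apply_eq, Finset.sum_eq_zero] at h2
    · exact zero_ne_one h2
    · intro l _
      by_cases hl : l = i
      · rw [hl, hi, zero_mul]
      · rw [hoff i l (Ne.symm hl), zero_mul]
  have hd1 : ∀ i j : Fin n, i ≠ j → τ a * (A : Matrix (Fin n) (Fin n) F) j j = a * (A : Matrix (Fin n) (Fin n) F) i i := by
    intro i j hij
    obtain ⟨k, hki, hkj⟩ := hthird i j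
    obtain ⟨μ, hμ⟩ := hrel i j k a 0 hij hki.symm hkj.symm (by rw [zero_mul, add_zero, ha]; ring)
    have h1 := hμ i
    have h2 := hμ j
    simp only [Pi.add_apply, Pi.smul_apply, Pi.single_eq_of_ne hij, Pi.single_eq_of_ne hij.symm, Pi.single_eq_same,
      smul_eq_mul, mul_zero, zero_mul, add_zero, zero_add, map_zero, mul_one, hoff i j hij, hoff j i hij.symm] at h1 h2
    rw [h2, h1]
    ring
  have hconst : ∀ i j : Fin n, (A : Matrix (Fin n) (Fin n) F) i i = (A : Matrix (Fin n) (Fin n) F) j j := by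
    intro i j
    by_cases hij : i = j
    · rw [hij]
    obtain ⟨k, hki, hkj⟩ := hthird i j
    have h1 := hd1 i k hki.symm
    have h2 := hd1 j k hkj.symm
    exact mul_left_cancel₀ ha0 (h1.symm.trans h2)
  -- `τ = 1`
  let i0 : Fin n := ⟨0, by omega⟩
  let i1 : Fin n := ⟨1, by omega⟩
  let i2 : Fin n := ⟨2, by omega⟩
  have h01 : i0 ≠ i1 := fun e => absurd (congrArg Fin.val e) (show ¬ (0 : ℕ) = 1 by decide)
  have h02 : i0 ≠ i2 := fun e => absurd (congrArg Fin.val e) (show ¬ (0 : ℕ) = 2 by decide)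
  have h12 : i1 ≠ i2 := fun e => absurd (congrArg Fin.val e) (show ¬ (1 : ℕ) = 2 by decide)
  have hτ : τ = RingEquiv.refl F := by
    apply RingEquiv.ext
    intro z
    obtain ⟨y, hy⟩ := exists_norm_eq hq (c := -1 - z * z ^ q) (by
      rw [sub_pow_q hq, norm_pow_q hq, neg_pow_q hq, one_pow])
    obtain ⟨μ, hμ⟩ := hrel i0 i1 i2 y z h01 h02 h12 (by rw [hy]; ring)
    have h1 := hμ i0
    have h2 := hμ i2
    simp only [Pi.add_apply, Pi.smul_apply, Pi.single_eq_of_ne h01, Pi.single_eq_of_ne h02,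
      Pi.single_eq_of_ne h02.symm, Pi.single_eq_of_ne h12.symm, Pi.single_eq_same,
      smul_eq_mul, mul_zero, add_zero, zero_add, mul_one, hoff i0 i1 h01, hoff i0 i2 h02,
      hoff i2 i0 h02.symm, hoff i2 i1 h12.symm] at h1 h2
    show τ z = z
    rw [← h1, hconst i2 i0, mul_comm] at h2
    exact mul_left_cancel₀ (hAi i0) h2
  rw [hτ, Sem_one]
  refine Cj_eq_one_iff.2 ⟨(A : Matrix (Fin n) (Fin n) F) i0 i0, ?_⟩
  ext i j
  rw [Matrix.smul_apply, Matrix.one_apply, smul_eq_mul]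
  by_cases e : i = j
  · rw [e, if_pos rfl, mul_one, hconst]
  · rw [if_neg e, mul_zero, hoff i j e]

/-- the kernel of `fU` is the centre -/
theorem fU_eq_one_iff (hn : 3 ≤ n) (hq : Fintype.card F = q ^ 2) (k : SU n F q) :
    fU n F q k = 1 ↔ k ∈ Subgroup.center (SU n F q) := by
  have : Nontrivial (Fin n) := Fin.nontrivial_iff_two_le.2 (by omega)
  constructor
  · intro h
    obtain ⟨c, hc⟩ := Cj_eq_one_iff.1 h
    refine Cfsg.Agent.LieClassical.HermSimple.mem_center_of_scalar (d := c) fun v => ?_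
    rw [act_def, ← coe_gU]
    have e : (gU k : Matrix (Fin n) (Fin n) F) = c • (1 : Matrix (Fin n) (Fin n) F) := hc
    rw [e, Matrix.smul_mulVec, Matrix.one_mulVec]
  · intro h
    have h1 : Sem (gU k) (RingEquiv.refl F) = 1 := by
      refine sem_eq_one hn hq fun k' => ?_
      rw [Sem_one, ← fU_apply, ← map_mul, ← map_mul, Subgroup.mem_center_iff.1 h]
    rwa [Sem_one] at h1

/-- the matrix of the map `x ↦ x + h(x, w) u` -/
def pM (q : ℕ) (u w : Fin n → F) : Matrix (Fin n) (Fin n) F := 1 + vecMulVec u (fun j => w j ^ q)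

omit [Fintype F] in
theorem pM_mulVec (u w x : Fin n → F) : pM q u w *ᵥ x = x + hermForm n F q x w • u := by
  have h1 : (fun j => w j ^ q) ⬝ᵥ x = hermForm n F q x w := by
    rw [herm_def, dotProduct]; exact Finset.sum_congr rfl fun _ _ => mul_comm _ _
  rw [pM, Matrix.add_mulVec, Matrix.one_mulVec, Matrix.vecMulVec_mulVec, h1, op_smul_eq_smul]

theorem det_pM (hq : Fintype.card F = q ^ 2) {u w : Fin n → F} (h : hermForm n F q u w = 0) :
    (pM q u w).det = 1 := by
  have h2 := two_le hq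
  apply det_eq_one_of_unipotent (by rw [hq]; nlinarith)
  have key : ∀ v : Fin n → F, (pM q u w - 1) *ᵥ v = hermForm n F q v w • u := by
    intro v
    rw [Matrix.sub_mulVec, pM_mulVec, Matrix.one_mulVec, add_sub_cancel_left]
  apply Matrix.ext_of_mulVec_single
  intro i
  rw [Matrix.zero_mulVec, ← Matrix.mulVec_mulVec, ← Matrix.mulVec_mulVec, key, key, key]
  simp only [herm_smul_left, h, mul_zero, zero_smul, herm_zero_left]

/-- the element of `GL` -/
noncomputable def pG (hq : Fintype.card F = q ^ 2) (u w : Fin n → F) (h : hermForm n F q u w = 0) : GL (Fin n) F :=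
  Matrix.SpecialLinearGroup.toGL ⟨pM q u w, det_pM hq h⟩

theorem coe_pG (hq : Fintype.card F = q ^ 2) (u w : Fin n → F) (h : hermForm n F q u w = 0) :
    (pG hq u w h : Matrix (Fin n) (Fin n) F) = pM q u w := rfl

theorem map_pM (hq : Fintype.card F = q ^ 2) {σ : F ≃+* F} (hσ : ∀ a, σ a = a ^ q) (u w : Fin n → F) :
    ((pM q u w)ᵀ).map σ = pM q w u := by
  ext i j
  show σ ((1 : Matrix (Fin n) (Fin n) F) j i + u j * w i ^ q) = (1 : Matrix (Fin n) (Fin n) F) i j + w i * u j ^ q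
  rw [map_add, map_mul, hσ, hσ, hσ, pow_q_pow_q hq, Matrix.one_apply, Matrix.one_apply, mul_comm]
  congr 1
  by_cases e : i = j
  · rw [if_pos e, if_pos e.symm, one_pow]
  · rw [if_neg e, if_neg (Ne.symm e), zero_pow_q hq]

omit [Fintype F] in
/-- the commutator of `Cj g` with `t` -/
theorem comm_t {σ : F ≃+* F} (g : GL (Fin n) F) :
    Cj g * tU n σ * (Cj g)⁻¹ * (tU n σ)⁻¹ = Cj (g * mg σ (ct g⁻¹)) := by
  rw [mul_assoc (Cj g), ← map_inv Cj g, tU_mul_Cj, ← mul_assoc, mul_inv_cancel_right, ← map_mul]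

/-- the commutators -/
noncomputable def sG {σ : F ≃+* F} (hq : Fintype.card F = q ^ 2) (u w : Fin n → F)
    (h : hermForm n F q u w = 0) : GL (Fin n) F :=
  pG hq u w h * mg σ (ct (pG hq u w h)⁻¹)

theorem sG_mulVec (hq : Fintype.card F = q ^ 2) {σ : F ≃+* F} (hσ : ∀ a, σ a = a ^ q) {u w : Fin n → F}
    (h : hermForm n F q u w = 0) (x : Fin n → F) :
    (sG (σ := σ) hq u w h : Matrix (Fin n) (Fin n) F) *ᵥ x = x + hermForm n F q x u • w +
      (hermForm n F q x w + hermForm n F q x u * hermForm n F q w w) • u := by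
  have h1 : (mg σ (ct (pG hq u w h)⁻¹) : Matrix (Fin n) (Fin n) F) = pM q w u := by
    rw [coe_mg, coe_ct, inv_inv, coe_pG, map_pM hq hσ]
  rw [sG, Units.val_mul, h1, coe_pG, ← Matrix.mulVec_mulVec, pM_mulVec, pM_mulVec, herm_add_left, herm_smul_left]

/-- **the root element** -/
theorem root (hn : 3 ≤ n) (hq : Fintype.card F = q ^ 2) {σ : F ≃+* F} (hσ : ∀ a, σ a = a ^ q) :
    ∃ k₀ : SU n F q, fU n F q k₀ ≠ 1 ∧ fU n F q k₀ ∈ Subgroup.closure
      {z | ∃ g ∈ inn (Matrix.ProjectiveSpecialLinearGroup (Fin n) F), g * fU n F q k₀ = fU n F q k₀ * g ∧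
        z = g * tU n σ * g⁻¹ * (tU n σ)⁻¹} := by
  have : Nontrivial (Fin n) := Fin.nontrivial_iff_two_le.2 (by omega)
  obtain ⟨a, ha0, ha⟩ := exists_norm_eq_ne hq (c := (-1 : F))
    (by rw [neg_pow_q hq, one_pow]) (neg_ne_zero.2 one_ne_zero)
  obtain ⟨b, hb0, hb⟩ := exists_trace_zero_ne hq
  let i0 : Fin n := ⟨0, by omega⟩
  let i1 : Fin n := ⟨1, by omega⟩
  let i2 : Fin n := ⟨2, by omega⟩
  have h01 : i0 ≠ i1 := fun e => absurd (congrArg Fin.val e) (show ¬ (0 : ℕ) = 1 by decide)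
  have h02 : i0 ≠ i2 := fun e => absurd (congrArg Fin.val e) (show ¬ (0 : ℕ) = 2 by decide)
  have h12 : i1 ≠ i2 := fun e => absurd (congrArg Fin.val e) (show ¬ (1 : ℕ) = 2 by decide)
  have hss : ∀ i j : Fin n, hermForm n F q (Pi.single i 1) (Pi.single j 1) = if i = j then 1 else 0 := by
    intro i j
    rw [herm_single_right hq, one_pow, mul_one, Pi.single_apply]
    by_cases e : i = j
    · rw [if_pos e, if_pos e.symm]
    · rw [if_neg e, if_neg (Ne.symm e)]
  obtain ⟨u, hu⟩ : ∃ u : Fin n → F, u = Pi.single i0 1 + a • Pi.single i1 1 := ⟨_, rfl⟩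
  obtain ⟨w, hw⟩ : ∃ w : Fin n → F, w = Pi.single i2 1 := ⟨_, rfl⟩
  have huu : hermForm n F q u u = 0 := by
    rw [hu]
    simp only [herm_add_left, herm_add_right hq, herm_smul_left, herm_smul_right, hss, if_true, if_neg h01,
      if_neg h01.symm]
    linear_combination ha
  have huw : hermForm n F q u w = 0 := by
    rw [hu, hw]
    simp only [herm_add_left, herm_smul_left, hss, if_neg h02, if_neg h12]
    ring
  have hwu : hermForm n F q w u = 0 := herm_eq_zero_swap hq huw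
  have hww : hermForm n F q w w = 1 := by rw [hw, hss, if_pos rfl]
  have hu0 : u ≠ 0 := by
    intro h
    have h1 := congrFun h i0
    rw [hu, Pi.add_apply, Pi.smul_apply, Pi.single_eq_same, Pi.single_eq_of_ne h01, smul_zero, add_zero,
      Pi.zero_apply] at h1
    exact one_ne_zero h1
  have hc : -b ^ q + (-b ^ q) ^ q = 0 := by
    rw [neg_pow_q hq, pow_q_pow_q hq]
    linear_combination -hb
  obtain ⟨k, hk⟩ : ∃ k : SU n F q, ∀ v, mat k *ᵥ v = v + ((-b ^ q) * hermForm n F q v u) • u :=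
    ⟨_, act_trans hq huu hc⟩
  have hbq : -b ^ q ≠ 0 := neg_ne_zero.2 (pow_ne_zero _ hb0)
  refine ⟨k, ?_, ?_⟩
  · intro h1
    obtain ⟨d, hd⟩ := Cj_eq_one_iff.1 h1
    have hd' : mat k = d • (1 : Matrix (Fin n) (Fin n) F) := hd
    have h2 : ∀ v, d • v = v + ((-b ^ q) * hermForm n F q v u) • u := by
      intro v
      rw [← hk, hd', Matrix.smul_mulVec, Matrix.one_mulVec]
    have h3 : d = 1 := by
      have h4 := h2 u
      rw [huu, mul_zero, zero_smul, add_zero] at h4
      have h5 : (d - 1) • u = 0 := by rw [sub_smul, h4, one_smul, sub_self]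
      rcases smul_eq_zero.1 h5 with h5 | h5
      · exact sub_eq_zero.1 h5
      · exact absurd h5 hu0
    obtain ⟨v, hv⟩ := exists_herm_ne_zero hq hu0
    have h4 := h2 v
    rw [h3, one_smul] at h4
    have h5 : ((-b ^ q) * hermForm n F q v u) • u = 0 := by
      have := congrArg (fun z => z - v) h4
      simpa using this.symm
    rcases smul_eq_zero.1 h5 with h5 | h5
    · rcases mul_eq_zero.1 h5 with h6 | h6
      · exact hbq h6
      · apply hv
        rw [herm_swap hq v u, h6, zero_pow_q hq]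
    · exact hu0 h5
  · -- `S_{w + b w} k = S_w S_{b w}`
    have huw' : hermForm n F q u (b • w) = 0 := by rw [herm_smul_right, huw, mul_zero]
    have huw'' : hermForm n F q u (w + b • w) = 0 := by rw [herm_add_right hq, huw, huw', add_zero]
    have hmem : ∀ (z : Fin n → F) (hz : hermForm n F q u z = 0), Cj (sG (σ := σ) hq u z hz) ∈ Subgroup.closure
        {z | ∃ g ∈ inn (Matrix.ProjectiveSpecialLinearGroup (Fin n) F), g * fU n F q k = fU n F q k * g ∧
          z = g * tU n σ * g⁻¹ * (tU n σ)⁻¹} := by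
      intro z hz
      apply Subgroup.subset_closure
      refine ⟨Cj (pG hq u z hz), Cj_mem_inn _ (det_pM hq hz), ?_, (comm_t _).symm⟩
      rw [fU_apply, ← map_mul, ← map_mul]
      congr 1
      apply Units.ext
      rw [Units.val_mul, Units.val_mul, coe_pG, coe_gU]
      apply Matrix.ext_of_mulVec_single
      intro i
      rw [← Matrix.mulVec_mulVec, ← Matrix.mulVec_mulVec, pM_mulVec, pM_mulVec, hk, hk, herm_add_left,
        herm_add_left, herm_smul_left, herm_smul_left, huu, hz]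
      simp only [mul_zero, add_zero]
      abel
    have hrel : sG (σ := σ) hq u (w + b • w) huw'' * gU k = sG (σ := σ) hq u w huw * sG (σ := σ) hq u (b • w) huw' := by
      apply Units.ext
      rw [Units.val_mul, Units.val_mul, coe_gU]
      apply Matrix.ext_of_mulVec_single
      intro i
      rw [← Matrix.mulVec_mulVec, ← Matrix.mulVec_mulVec, sG_mulVec hq hσ, sG_mulVec hq hσ, sG_mulVec hq hσ, hk]
      simp only [herm_add_left, herm_smul_left, herm_add_right hq, herm_smul_right, huu, huw, hwu, hww]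
      funext l
      simp only [Pi.add_apply, Pi.smul_apply, smul_eq_mul]
      ring
    have hk2 : fU n F q k = (Cj (sG (σ := σ) hq u (w + b • w) huw''))⁻¹ *
        (Cj (sG (σ := σ) hq u w huw) * Cj (sG (σ := σ) hq u (b • w) huw')) := by
      rw [← map_mul, ← hrel, map_mul, inv_mul_cancel_left, fU_apply]
    have h5 := Subgroup.mul_mem _ (Subgroup.inv_mem _ (hmem _ huw''))
      (Subgroup.mul_mem _ (hmem _ huw) (hmem _ huw'))
    rwa [← hk2] at h5

end Basic

/-- **box BU** -/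
theorem killed_U {F : Type} [Field F] [Fintype F] {n q : ℕ} (hq : Fintype.card F = q ^ 2)
    (hn : 3 ≤ n) (hne : ¬ (n = 3 ∧ q = 2)) (σ : F ≃+* F) (hσ : ∀ a, σ a = a ^ q)
    (hRC : Nat.card (PSU n F q) < Nat.card (Matrix.ProjectiveSpecialLinearGroup (Fin n) F) →
      RCo (PSU n F q)) :
    Killed (lift (fld σ) * It : MulAut (Matrix.ProjectiveSpecialLinearGroup (Fin n) F)) := by
  have : Nontrivial (Fin n) := Fin.nontrivial_iff_two_le.2 (by omega)
  have hS : IsSimpleGroup (Matrix.ProjectiveSpecialLinearGroup (Fin n) F) := Cfsg.Agent.S0249.result n hn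
  obtain ⟨k₀, hk₀, hy⟩ := root (σ := σ) hn hq hσ
  have hSn : ¬ IsMulCommutative (Matrix.ProjectiveSpecialLinearGroup (Fin n) F) := by
    intro h
    obtain ⟨s, hs⟩ := fU_mem k₀
    apply hk₀
    rw [← hs]
    apply MulEquiv.ext
    intro x
    rw [MulAut.conj_apply, h.is_comm.comm s x, mul_inv_cancel_right, MulAut.one_apply]
  have ht1 : tU n σ ≠ 1 := by
    intro h
    apply hk₀
    have hle : Subgroup.closure {z | ∃ g ∈ inn (Matrix.ProjectiveSpecialLinearGroup (Fin n) F),
        g * fU n F q k₀ = fU n F q k₀ * g ∧ z = g * tU n σ * g⁻¹ * (tU n σ)⁻¹} ≤ ⊥ := by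
      rw [Subgroup.closure_le]
      rintro _ ⟨g, -, -, rfl⟩
      rw [h, mul_one, mul_inv_cancel, inv_one, mul_one]
      exact Subgroup.one_mem _
    exact Subgroup.mem_bot.1 (hle hy)
  have hK : IsSimpleGroup (SU n F q ⧸ Subgroup.center (SU n F q)) := Cfsg.Agent.S0283.result hq n hn hne
  have hKn : ¬ IsMulCommutative (SU n F q ⧸ Subgroup.center (SU n F q)) := by
    intro hcm
    have h1 : commutator (SU n F q) ≤ Subgroup.center (SU n F q) := by
      rw [commutator_def, Subgroup.commutator_le]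
      intro a _ b _
      apply (QuotientGroup.eq_one_iff _).1
      have h2 : ((⁅a, b⁆ : SU n F q) : SU n F q ⧸ Subgroup.center (SU n F q)) =
        ⁅(a : SU n F q ⧸ Subgroup.center (SU n F q)), (b : SU n F q ⧸ Subgroup.center (SU n F q))⁆ :=
        map_commutatorElement (QuotientGroup.mk' (Subgroup.center (SU n F q))) a b
      rw [h2, commutatorElement_eq_one_iff_mul_comm]
      exact hcm.is_comm.comm _ _
    rw [Cfsg.Agent.LieClassical.HermPerfect.commutator_SU_eq_top hq hn hne] at h1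
    obtain ⟨y, hy⟩ := exists_ne (1 : SU n F q ⧸ Subgroup.center (SU n F q))
    obtain ⟨s, rfl⟩ := QuotientGroup.mk_surjective y
    exact hy ((QuotientGroup.eq_one_iff s).2 (h1 (Subgroup.mem_top s)))
  have hf := fU_eq_one_iff (F := F) (q := q) hn hq
  have hRC' : RCo (SU n F q ⧸ Subgroup.center (SU n F q)) :=
    hRC (card_lt_of_cent hS hSn (fU n F q) hf fU_mem (tU n σ) ht1 (t_comm hq hσ))
  refine (killed_iff _).2 ?_
  intro κ _ x r hF H hcov
  have hform : ∀ i, ∃ (A : GL (Fin n) F) (τ : F ≃+* F), x i = Sem A τ := fun i =>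
    exists_sem_of_odd (by rw [Fintype.card_fin]; omega) (x i) ((hF.pr i).odd_of_ne_two (hF.ne2 i)) (hF.pow i)
  refine fam_K hS hF (tU_sq (sig_sig hq hσ)) hcov (fU n F q) hf hK hKn hRC' fU_mem (t_comm hq hσ) ?_ ?_ k₀ hk₀ hy
  · intro i k
    obtain ⟨A, τ, hA⟩ := hform i
    have h1 := hF.commt i
    rw [hA] at h1 ⊢
    exact norm_fU hq hσ h1 k
  · intro i h
    obtain ⟨A, τ, hA⟩ := hform i
    apply hF.ne1 i
    rw [hA] at h ⊢
    exact sem_eq_one hn hq h

end Cfsg.Agent.H442.RC.KU
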