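import Cfsg.Agent.H442.RC.Fr

/-!
# S3510, triality: local triality for a symmetric composition `dia τ`

`Pr τ v w` : `v ⋄ v = 0 = w ⋄ w`, `b(v, w) = 1`; then `v, w, v ⋄ w, w ⋄ v` is a hyperbolic frame.
`tri_sieg` : `S (x ⋄ y) = S' x ⋄ S'' y`.
-/

set_option autoImplicit false
set_option linter.unusedSectionVars false

namespace Cfsg.Agent.H442.RC.TriB

open Module QuadraticMap Cfsg.Agent.LieClassical.OrthCore Cfsg.Agent.LieClassical.OrthTrans
  Cfsg.Agent.LieClassical.OrthSimple Cfsg.Agent.ClassicalGeometry.OrthAut1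
  Cfsg.Agent.ClassicalGeometry.OrthSemi Cfsg.Agent.H198.Classes
  Cfsg.Agent.LieClassical.QuadForms Cfsg.Agent.H198.ClassesPlus
  Cfsg.Agent.ClassicalGeometry.TrialityOct Cfsg.Agent.ClassicalGeometry.Triality
  Cfsg.Agent.ClassicalGeometry.TrialitySpaces Cfsg.Agent.H198.TriBase Cfsg.Agent.H198.TriAut
  Cfsg.Agent.H198.TriDia Cfsg.Agent.H566.RC

universe u

variable {F : Type u} [Field F] {τ : G8 F}

/-- a pair of opposite nilpotent elements -/
structure Pr (τ : G8 F) (v w : V8 F) : Prop where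
  vv : dia τ v v = 0
  ww : dia τ w w = 0
  vw : polar (plusForm 4 F) v w = 1

theorem Pr.symm {v w : V8 F} (k : Pr τ v w) : Pr τ w v := ⟨k.ww, k.vv, by rw [polar_comm, k.vw]⟩

section

variable (h : Au τ) {v w : V8 F}

include h

theorem norm_of_dia {v : V8 F} (hv : dia τ v v = 0) : plusForm 4 F v = 0 := by
  have h1 := h.dia_norm v v
  rw [hv, QuadraticMap.map_zero] at h1
  exact mul_self_eq_zero.1 h1.symm

theorem dia_zero_right (u : V8 F) : dia τ u 0 = 0 := by
  have h1 := h.dia_add_right u 0 0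
  rw [add_zero] at h1
  exact left_eq_add.1 h1

theorem dia_zero_left (u : V8 F) : dia τ 0 u = 0 := by
  have h1 := h.dia_add_left 0 0 u
  rw [add_zero] at h1
  exact left_eq_add.1 h1

variable (k : Pr τ v w)

include k

/-- products -/
theorem p_v : dia τ (dia τ v w) v = 0 := by rw [h.dia_dia, norm_of_dia h k.vv, zero_smul]
theorem v_q : dia τ v (dia τ w v) = 0 := by rw [h.dia_dia', norm_of_dia h k.vv, zero_smul]
theorem w_p : dia τ w (dia τ v w) = 0 := by rw [h.dia_dia', norm_of_dia h k.ww, zero_smul]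
theorem q_w : dia τ (dia τ w v) w = 0 := by rw [h.dia_dia, norm_of_dia h k.ww, zero_smul]

theorem v_p : dia τ v (dia τ v w) = v := by
  have h1 := h.lin2 v v w
  rw [k.vv, dia_zero_right h, add_zero, k.vw, one_smul] at h1
  exact h1

theorem q_v : dia τ (dia τ w v) v = v := by
  have h1 := h.lin1 w v v
  rw [k.vv, dia_zero_left h, add_zero, polar_comm, k.vw, one_smul] at h1
  exact h1

theorem w_q : dia τ w (dia τ w v) = w := v_p h k.symm

theorem p_w : dia τ (dia τ v w) w = w := q_v h k.symm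

theorem p_p : dia τ (dia τ v w) (dia τ v w) = -dia τ w v := by
  have h1 := h.lin1 v w (dia τ v w)
  rw [p_w h k] at h1
  rw [← h.assoc, k.vv, polar_zero_left, zero_smul] at h1
  exact eq_neg_of_add_eq_zero_left h1

theorem q_q : dia τ (dia τ w v) (dia τ w v) = -dia τ v w := p_p h k.symm

theorem p_q : dia τ (dia τ v w) (dia τ w v) = 0 := by
  have h1 := h.lin1 v w (dia τ w v)
  rw [q_w h k, dia_zero_left h, add_zero] at h1
  rw [h1, polar_comm, h.assoc, k.vv, polar_zero_right, zero_smul]

theorem q_p : dia τ (dia τ w v) (dia τ v w) = 0 := p_q h k.symm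

theorem frame : Fr (plusForm 4 F) v w (dia τ v w) (dia τ w v) := by
  have hv := norm_of_dia h k.vv
  have hw := norm_of_dia h k.ww
  refine ⟨hv, hw, by rw [h.dia_norm, hv, zero_mul], by rw [h.dia_norm, hv, mul_zero], k.vw, ?_, ?_, ?_, ?_, ?_⟩
  · rw [h.assoc, w_q h k, k.vw]
  · rw [← h.assoc, k.vv, polar_zero_left]
  · rw [polar_comm, h.assoc, k.vv, polar_zero_right]
  · rw [polar_comm, h.assoc, k.ww, polar_zero_right]
  · rw [← h.assoc, k.ww, polar_zero_left]

end

section tri

variable (h : Au τ) {a b : V8 F}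

include h

theorem polar_left (b x z : V8 F) : polar (plusForm 4 F) (dia τ b x) (dia τ b z) =
    plusForm 4 F b * polar (plusForm 4 F) x z := by
  rw [polar_comm, ← h.assoc, h.dia_dia, polar_smul_left, smul_eq_mul, polar_comm]

theorem polar_right (b x z : V8 F) : polar (plusForm 4 F) (dia τ x b) (dia τ z b) =
    plusForm 4 F b * polar (plusForm 4 F) x z := by
  rw [h.assoc, h.dia_dia', polar_smul_right, smul_eq_mul]

theorem neg_left (x y : V8 F) : dia τ (-x) y = -dia τ x y := by
  rw [← neg_one_smul F x, h.dia_smul_left, neg_one_smul]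

theorem neg_right (x y : V8 F) : dia τ x (-y) = -dia τ x y := by
  rw [← neg_one_smul F y, h.dia_smul_right, neg_one_smul]

theorem sub_left (x x' y : V8 F) : dia τ (x - x') y = dia τ x y - dia τ x' y := by
  rw [sub_eq_add_neg, h.dia_add_left, neg_left h, sub_eq_add_neg]

theorem sub_right (x y y' : V8 F) : dia τ x (y - y') = dia τ x y - dia τ x y' := by
  rw [sub_eq_add_neg, h.dia_add_right, neg_right h, sub_eq_add_neg]

/-- **local triality** for a Siegel element -/
theorem tri_sieg (ha : plusForm 4 F a = 0) (hb : plusForm 4 F b = 0) (hab : polar (plusForm 4 F) a b = 0) (x y : V8 F) :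
    dia τ x y + polar (plusForm 4 F) a (dia τ x y) • b - polar (plusForm 4 F) b (dia τ x y) • a =
      dia τ (x - dia τ (dia τ b x) a) (y - dia τ a (dia τ y b)) := by
  have t0 : dia τ a (dia τ y b) = -dia τ b (dia τ y a) := by
    have h1 := h.lin2 a y b
    rw [hab, zero_smul] at h1
    exact eq_neg_of_add_eq_zero_left h1
  have t1 : dia τ (dia τ (dia τ b x) a) (dia τ a (dia τ y b)) = 0 := by
    have h1 := h.lin1 (dia τ b x) a (dia τ a (dia τ y b))
    rw [h.dia_dia, ha, zero_smul, dia_zero_left h, add_zero] at h1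
    rw [h1, t0, polar_neg_right, polar_left h, hb, zero_mul, neg_zero, zero_smul]
  have t2 : dia τ (dia τ a x) b = -dia τ (dia τ b x) a := by
    have h1 := h.lin1 a x b
    rw [hab, zero_smul] at h1
    exact eq_neg_of_add_eq_zero_left h1
  have t3 := h.lin1 y b (dia τ a x)
  rw [t2, neg_left h] at t3
  have t4 := h.lin2 x a (dia τ y b)
  have t5 : polar (plusForm 4 F) y (dia τ a x) = polar (plusForm 4 F) a (dia τ x y) := by
    rw [polar_comm, h.assoc]
  have t6 : polar (plusForm 4 F) x (dia τ y b) = polar (plusForm 4 F) b (dia τ x y) := by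
    rw [← h.assoc, polar_comm]
  rw [t5] at t3
  rw [t6] at t4
  have t7 : dia τ (dia τ y b) (dia τ a x) = polar (plusForm 4 F) a (dia τ x y) • b + dia τ (dia τ (dia τ b x) a) y := by
    rw [← t3]; abel
  rw [t7] at t4
  have t8 : dia τ x (dia τ a (dia τ y b)) = polar (plusForm 4 F) b (dia τ x y) • a -
      (polar (plusForm 4 F) a (dia τ x y) • b + dia τ (dia τ (dia τ b x) a) y) := by
    rw [← t4]; abel
  rw [sub_left h, sub_right h, sub_right h, t1, t8]
  abel

/-- `(p ⋄ x) ⋄ v = b(v, x) q - b(q, x) v` for `p = v ⋄ w`, `q = w ⋄ v` -/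
theorem px_v {v w : V8 F} (k : Pr τ v w) (x : V8 F) : dia τ (dia τ (dia τ v w) x) v =
    polar (plusForm 4 F) v x • dia τ w v - polar (plusForm 4 F) (dia τ w v) x • v := by
  have h1 := h.lin1 v w x
  have h2 := h.lin1 (dia τ x w) v v
  rw [k.vv, dia_zero_left h, add_zero] at h2
  have h3 : dia τ (dia τ v w) x = polar (plusForm 4 F) v x • w - dia τ (dia τ x w) v := by
    rw [← h1]; abel
  rw [h3, sub_left h, h.dia_smul_left, h2, h.assoc, polar_comm _ x]

end tri

end Cfsg.Agent.H442.RC.TriB
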