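import Cfsg.Agent.H442.RC.K3
import Cfsg.Agent.H566.RC.KillRC
import Cfsg.Agent.H675.RC.Single
import Cfsg.Agent.H675.RC.Frame
import Cfsg.Agent.H188.RC.OkSS
import Cfsg.Agent.H202.Tri.Mix
import Cfsg.Agent.H499.RC.Two

/-!
# S3510, triality of `PΩ₈⁺(q)`, type (ii): `x i₁` induces `xt hG (tauB F)`, `p ≠ 3`
-/

set_option autoImplicit false
set_option linter.unusedSectionVars false

namespace Cfsg.Agent.H442.RC.TriB

open Module QuadraticMap Cfsg.Agent.LieClassical.OrthCore Cfsg.Agent.LieClassical.OrthTrans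
  Cfsg.Agent.LieClassical.OrthSimple Cfsg.Agent.ClassicalGeometry.OrthAut1
  Cfsg.Agent.ClassicalGeometry.OrthSemi Cfsg.Agent.H198.Classes
  Cfsg.Agent.LieClassical.QuadForms Cfsg.Agent.H198.ClassesPlus
  Cfsg.Agent.ClassicalGeometry.TrialityOct Cfsg.Agent.ClassicalGeometry.Triality
  Cfsg.Agent.ClassicalGeometry.TrialitySpaces Cfsg.Agent.H198.TriBase Cfsg.Agent.H198.TriAut
  Cfsg.Agent.H198.TriDia Cfsg.Agent.H198.TriSpec Cfsg.Agent.H566.RC Cfsg.Agent.AutOrth.SemiSim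
  Cfsg.Agent.H106.RC Cfsg.Agent.H93.RC Cfsg.Agent.H989.OkuboRoot

universe u

section alg

variable {F : Type u} [Field F]

/-- the linear exact elements -/
def XLs (F : Type u) [Field F] : Subgroup (G8 F) where
  carrier := {M | IsSS (plusForm 4 F) (RingEquiv.refl F) 1 M.1 ∧ H675.RC.Ex (tauB F) M}
  mul_mem' := by
    rintro A B ⟨hA, hA'⟩ ⟨hB, hB'⟩
    refine ⟨?_, hA'.mul hB'⟩
    have h1 := hA.mul hB
    rw [map_one, mul_one] at h1
    exact h1
  one_mem' := ⟨⟨one_ne_zero, fun _ _ => rfl, fun _ _ => rfl, fun v => by rw [one_mul]; rfl⟩, H675.RC.Ex.one _⟩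
  inv_mem' := by
    rintro A ⟨hA, hA'⟩
    refine ⟨?_, hA'.inv⟩
    have h1 := hA.inv
    rw [inv_one, map_one] at h1
    exact h1

/-- the elements fixing `v` -/
def Sv (v : V8 F) : Subgroup (G8 F) where
  carrier := {M | M.1 v = v}
  mul_mem' := by
    intro A B hA hB
    change A.1 (B.1 v) = v
    rw [show B.1 v = v from hB, show A.1 v = v from hA]
  one_mem' := rfl
  inv_mem' := by
    intro A hA
    change A.1.symm v = v
    rw [Equiv.symm_apply_eq]
    exact (show A.1 v = v from hA).symm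

/-- the linear map -/
def lin {M : G8 F} (h : M ∈ XLs F) : V8 F ≃ₗ[F] V8 F :=
  { M.1 with
    map_add' := h.1.add
    map_smul' := h.1.smul }

theorem lin_apply {M : G8 F} (h : M ∈ XLs F) (x : V8 F) : lin h x = M.1 x := rfl

theorem lin_ex {M : G8 F} (h : M ∈ XLs F) : Ex (lin h) := h.2

theorem lin_pow {M : G8 F} (h : M ∈ XLs F) (n : ℕ) (x : V8 F) : (lin h ^ n) x = (M ^ n).1 x := by
  induction n generalizing x with
  | zero => rfl
  | succ n ih =>
    rw [pow_succ, pow_succ]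
    change (lin h ^ n) (lin h x) = (M ^ n).1 (M.1 x)
    rw [ih, lin_apply]

theorem lin_pow_one {M : G8 F} (h : M ∈ XLs F) {n : ℕ} (hn : M ^ n = 1) : lin h ^ n = 1 := by
  apply LinearEquiv.ext
  intro x
  rw [lin_pow, hn]
  rfl

theorem lin_ne_one {M : G8 F} (h : M ∈ XLs F) (hn : M ≠ 1) : lin h ≠ 1 := by
  intro h1
  apply hn
  apply extG
  intro x
  exact congrArg (fun g : V8 F ≃ₗ[F] V8 F => g x) h1

/-- a single generator -/
theorem exists_g {κ : Type*} [Finite κ] {M : κ → G8 F} (hM : ∀ j, M j ∈ XLs F) {r : κ → ℕ} (hr : ∀ j, (r j).Prime)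
    (hinj : Function.Injective r) (hp : ∀ j, M j ^ r j = 1) (hc : ∀ i j, M i * M j = M j * M i) :
    ∃ s ∈ XLs F, (∃ n : ℕ, s ^ n = 1 ∧ n ≠ 0 ∧ ∀ q : ℕ, q.Prime → q ∣ n → ∃ i, r i = q) ∧
      (∀ i, M i ∈ Subgroup.zpowers s) ∧ s ∈ Subgroup.closure (Set.range M) := by
  obtain ⟨s, hs, hn, h⟩ := H675.RC.exists_single M hc hr hinj hp
  refine ⟨s, (Subgroup.closure_le _).2 ?_ hs, hn, h, hs⟩
  rintro _ ⟨j, rfl⟩
  exact hM j

theorem fix_of {s M : G8 F} (h : M ∈ Subgroup.zpowers s) {v : V8 F} (hv : s.1 v = v) : M.1 v = v := by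
  have h1 : Subgroup.zpowers s ≤ Sv v := by
    rw [Subgroup.zpowers_le]
    exact hv
  exact h1 h

theorem cast_ne {p n : ℕ} [CharP F p] (hp : p.Prime) {κ : Type*} {r : κ → ℕ} (hn : ∀ q : ℕ, q.Prime → q ∣ n → ∃ i, r i = q)
    (h : ∀ i, r i ≠ p) : (n : F) ≠ 0 := by
  intro h0
  obtain ⟨i, hi⟩ := hn p hp ((CharP.cast_eq_zero_iff F p n).1 h0)
  exact h i hi

theorem cop_three {n : ℕ} {κ : Type*} {r : κ → ℕ} (hn : ∀ q : ℕ, q.Prime → q ∣ n → ∃ i, r i = q)
    (h : ∀ i, r i ≠ 3) : n.Coprime 3 := by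
  rw [Nat.coprime_comm, Nat.Prime.coprime_iff_not_dvd Nat.prime_three]
  intro h0
  obtain ⟨i, hi⟩ := hn 3 Nat.prime_three h0
  exact h i hi

end alg

/-- **Type (ii)** -/
theorem type_ii {F : Type} [Field F] [Finite F] {G Ω : Type} [Group G] [Finite G] [MulAction G Ω] [Nonempty Ω]
    {N : Subgroup G} {σ : P8 F →* G} (hG : Good (plusForm 4 F)) (hE : Env G Ω N)
    (hIH : IH (Nat.card (P (plusForm 4 F)))) {ι : Type} [Finite ι] {x : ι → G} {r : ι → ℕ} (hx : PF x r)
    (hcov : Cov Ω x) {i₁ : ι} {M : ι → G8 F} (fr : H675.RC.Fr hG N x r σ i₁ (tauB F) M) (h3 : (3 : F) ≠ 0)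
    (hl : ∀ j, Cfsg.Agent.H198.TriDia.IsLin (M j)) : False := by
  classical
  have hσ := fr.rp
  have hL := fr.la
  have hM := fr.lf
  have hch : CharP F (ringChar F) := ringChar.charP F
  have hpp : (ringChar F).Prime := CharP.char_is_prime F _
  have hr3 : ∀ j, j ≠ i₁ → r j ≠ 3 := fun j hj h => hj (hx.inj (h.trans fr.three.symm))
  have hp3 : ringChar F ≠ 3 := p_ne_three h3
  have hXL : ∀ j, M j ∈ XLs F := fun j => ⟨ss_of (hl j) (fr.ex j), fr.ex j⟩
  by_cases hU : ∃ i₀, i₀ ≠ i₁ ∧ r i₀ = ringChar F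
  · obtain ⟨i₀, h01, hi₀⟩ := hU
    by_cases hex : ∃ j, j ≠ i₁ ∧ j ≠ i₀
    · obtain ⟨j₂, hj₂, hj₂'⟩ := hex
      obtain ⟨s, hs, ⟨n, hsn, -, hn⟩, hsM, hsc⟩ := exists_g (κ := {j : ι // j ≠ i₁ ∧ j ≠ i₀}) (M := fun j => M j)
        (fun j => hXL j) (r := fun j => r j) (fun j => hx.prime j) (fun i j h => Subtype.ext (hx.inj h))
        (fun j => fr.pow j) (fun i j => fr.comm i j)
      have hrp : ∀ j, j ≠ i₁ → j ≠ i₀ → r j ≠ ringChar F := fun j _ h0 h => h0 (hx.inj (h.trans hi₀.symm))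
      have hcs : M i₀ * s = s * M i₀ := by
        have h1 : s ∈ Subgroup.centralizer ({M i₀} : Set (G8 F)) := by
          refine (Subgroup.closure_le _).2 ?_ hsc
          rintro _ ⟨j, rfl⟩
          exact Subgroup.mem_centralizer_singleton_iff.2 (fr.comm j i₀)
        exact (Subgroup.mem_centralizer_singleton_iff.1 h1).symm
      have hs1 : s ≠ 1 := by
        intro h1
        have h2 := hsM ⟨j₂, hj₂, hj₂'⟩
        rw [h1, Subgroup.zpowers_one_eq_bot, Subgroup.mem_bot] at h2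
        exact fr.ne j₂ hj₂ h2
      obtain ⟨v, hv, hvv, hpol⟩ := Cfsg.Agent.H202.Tri.mixed h3 (lin_ex hs) (lin_ex (hXL i₀)) (m := n)
        (p := ringChar F) (cast_ne hpp hn fun i => hrp i i.2.1 i.2.2) (cop_three hn fun i => hr3 i i.2.1)
        (lin_pow_one hs hsn) (lin_ne_one hs hs1) hpp (CharP.cast_eq_zero F _)
        (lin_pow_one (hXL i₀) (by rw [← hi₀]; exact fr.pow i₀)) (lin_ne_one (hXL i₀) (fr.ne i₀ h01))
        (by
          apply LinearEquiv.ext
          intro z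
          exact congrArg (fun X : G8 F => X.1 z) hcs)
      exact kill_three h3 hG hE hσ (p := ringChar F) h01 (fun j _ _ => hx.prime j) (fun j _ _ => hx.pow j)
        (fun j _ _ => hx.ne j) hrp hx.comm hcov hL hM (fun j _ => hl j) (fun j _ => fr.ex j) hvv
        (fun j h1 h0 => fix_of (hsM ⟨j, h1, h0⟩) hv) (fun j _ _ => fr.comm j i₀) hpol
    · push Not at hex
      refine kill_uni h3 hG hE hσ h01 (fun j => ?_) hx.comm hcov hL (hM i₀ h01) (hl i₀) (fr.ex i₀) (fr.ne i₀ h01)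
      by_cases hj : j = i₁
      · exact Or.inl hj
      · exact Or.inr (hex j hj)
  · push Not at hU
    by_cases hex : ∃ j, j ≠ i₁
    swap
    · push Not at hex
      apply hx.ne i₁
      apply hE.single
      intro ω
      obtain ⟨j, hj⟩ := hcov ω
      rwa [hex j] at hj
    obtain ⟨s, hs, ⟨n, hsn, hn0, hn⟩, hsM, -⟩ := exists_g (κ := {j : ι // j ≠ i₁}) (M := fun j => M j)
        (fun j => hXL j) (r := fun j => r j) (fun j => hx.prime j) (fun i j h => Subtype.ext (hx.inj h))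
        (fun j => fr.pow j) (fun i j => fr.comm i j)
    have hn3 : n.Coprime 3 := cop_three hn fun i => hr3 i i.2
    have hnF : (n : F) ≠ 0 := cast_ne hpp hn fun i => hU i i.2
    rcases Cfsg.Agent.H188.RC.OkSS.semis h3 (lin_ex hs) hnF hn3 (lin_pow_one hs hsn) with
      ⟨v, w, hv, hw, hvv, hww, hvw⟩ | ⟨hD, hD'⟩
    · exact kill_one hG hE hσ (p := ringChar F) hp3 (fun j _ => hx.prime j) (fun j _ => hx.pow j)
        (fun j _ => hx.ne j) hU hx.comm hcov H237.RC.TP.au_tauB hL hM (fun j _ => hl j) (fun j _ => fr.ex j)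
        ⟨hvv, hww, hvw⟩ (fun j h1 => fix_of (hsM ⟨j, h1⟩) hv) (fun j h1 => fix_of (hsM ⟨j, h1⟩) hw)
    · have hc1 : 1 < Nat.card F := Finite.one_lt_card
      have hz : ((Nat.card F : ℕ) : F) = 0 := by
        have := Fintype.ofFinite F
        rw [Nat.card_eq_fintype_card]
        exact Nat.cast_card_eq_zero F
      by_cases hc2 : Nat.card F = 2
      · have hchar : ringChar F = 2 := by
          rw [hc2] at hz
          exact (Nat.prime_dvd_prime_iff_eq hpp Nat.prime_two).1 ((CharP.cast_eq_zero_iff F (ringChar F) 2).1 hz)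
        have hn2 : n.Coprime 2 := by
          rw [Nat.coprime_comm, Nat.Prime.coprime_iff_not_dvd Nat.prime_two]
          intro h0
          obtain ⟨i, hi⟩ := hn 2 Nat.prime_two h0
          exact hU i i.2 (by rw [hchar]; exact hi)
        obtain ⟨v, hv0, hv, hvv⟩ := H499.RC.two hc2 (lin_ex hs) (m := n)
          (by rw [show (6 : ℕ) = 2 * 3 from rfl]; exact Nat.Coprime.mul_right hn2 hn3) (lin_pow_one hs hsn)
        exact hv0 (hD v hv hvv)
      · obtain ⟨a, ha, ht⟩ := hD' (by omega)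
        have hc3 : Nat.card F ≠ 3 := by
          intro h
          apply h3
          rw [h] at hz
          exact_mod_cast hz
        obtain ⟨y, z, y', z', k⟩ := H237.RC.TP.pair H237.RC.TP.au_tauB (by omega) ht
        have haj : ∀ j, j ≠ i₁ → (M j).1 a = a := fun j h1 => fix_of (hsM ⟨j, h1⟩) ha
        have hfix : ∀ (c d : F) j, j ≠ i₁ → (M j).1 (c • a + d • dia (tauB F) a a) = c • a + d • dia (tauB F) a a := by
          intro c d j h1
          have e : (M j).1 (dia (tauB F) a a) = dia (tauB F) ((M j).1 a) ((M j).1 a) := fr.ex j a a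
          rw [(hXL j).1.add, ss_smul (hXL j).1, ss_smul (hXL j).1, e, haj j h1]
        exact Cfsg.Agent.H566.RC.kill hG hE hσ (p := ringChar F) (fun j _ => hx.prime j) (fun j _ => hx.pow j)
          (fun j _ => hx.ne j) hx.comm hcov H237.RC.TP.au_tauB hL hM (fun j _ => hl j) (fun j _ => fr.ex j) k
          (hfix _ _) (hfix _ _) (fun i j _ _ h => hx.inj h) (fun j h1 h => absurd h (hr3 j h1)) hex
          (Cfsg.Agent.H566.RC.rc_W hG H237.RC.TP.au_tauB k hIH)

end Cfsg.Agent.H442.RC.TriB
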